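import Cfsg.Agent.UGeom.Count
import Cfsg.Agent.UGeom.Eichler
import Cfsg.Agent.Forms.WittSesq
import Cfsg.Prelude.Def_ClassicalGeometry
set_option autoImplicit false
set_option linter.style.haveILetI false

/-!
Stabilisers of totally isotropic subspaces in unitary groups.
-/

namespace CfsgLib.UGeom

open Matrix

variable {F : Type*} [Field F] [Fintype F] {q n : ℕ}

local notation "H" => Cfsg.hermForm n F q
local notation "Vn" => (Fin n → F)
local notation "GU" => Cfsg.GU n F q
local notation "mg" A:max => (((A : GU) : GL (Fin n) F) : Matrix (Fin n) (Fin n) F)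

/-- Independent tuples of pairwise orthogonal isotropic vectors. -/
def IsoFrame (n q k : ℕ) (F : Type*) [Field F] : Type _ :=
  {w : Fin k → (Fin n → F) //
    LinearIndependent F w ∧ ∀ i j, Cfsg.hermForm n F q (w i) (w j) = 0}

instance isoFrameFinite (k : ℕ) : Finite (IsoFrame n q k F) := by unfold IsoFrame; infer_instance

omit [Fintype F] in
theorem GU_mul_mulVec (A B : GU) (v : Vn) : mg (A * B) *ᵥ v = mg A *ᵥ (mg B *ᵥ v) := by
  rw [Subgroup.coe_mul, Units.val_mul, ← Matrix.mulVec_mulVec]

omit [Fintype F] in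
theorem GU_inv_cancel (A : GU) (v : Vn) : mg A⁻¹ *ᵥ (mg A *ᵥ v) = v := by
  rw [← GU_mul_mulVec, inv_mul_cancel, Subgroup.coe_one, Units.val_one, Matrix.one_mulVec]

/-- A frame moved by an isometry. -/
def IsoFrame.map {k : ℕ} (A : GU) (w : IsoFrame n q k F) : IsoFrame n q k F :=
  ⟨fun i => mg A *ᵥ w.1 i,
    w.2.1.map' (mg A).mulVecLin (LinearMap.ker_eq_bot.2 fun a b h => by
      rw [← GU_inv_cancel A a, ← GU_inv_cancel A b]
      exact congrArg (fun v => mg A⁻¹ *ᵥ v) h),
    fun i j => (A.2 (w.1 i) (w.1 j)).trans (w.2.2 i j)⟩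

omit [Fintype F] in
theorem form_sum_left {ι : Type*} (s : Finset ι) (c : ι → F) (u : ι → Vn) (x : Vn) :
    H (∑ i ∈ s, c i • u i) x = ∑ i ∈ s, c i * H (u i) x := by
  classical
  induction s using Finset.induction_on with
  | empty => simp [form_zero_left]
  | insert i s his ih => rw [Finset.sum_insert his, Finset.sum_insert his, form_add_left, form_smul_left, ih]

theorem form_span_zero (C : Conj F q) {ι : Type*} [Fintype ι] (c d : ι → F) (u : ι → Vn)
    (hu : ∀ i j, H (u i) (u j) = 0) : H (∑ i, c i • u i) (∑ j, d j • u j) = 0 := by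
  rw [form_sum_left]
  refine Finset.sum_eq_zero fun i _ => ?_
  rw [← form_conj C, form_sum_left, Finset.sum_eq_zero fun j _ => by rw [hu, mul_zero]]
  simp

/-- Witt: `GU` is transitive on frames. -/
theorem exists_move_isoFrame (C : Conj F q) {k : ℕ} (w w' : IsoFrame n q k F) :
    ∃ A : GU, ∀ i, mg A *ᵥ w.1 i = w'.1 i := by
  classical
  let B : Vn →ₛₗ[C.σ] Vn →ₗ[F] F := LinearMap.mk₂'ₛₗ C.σ (RingHom.id F) (fun u v => H v u)
    (fun u u' v => form_add_right C v u u') (fun c u v => form_smul_right C c v u)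
    (fun u v v' => form_add_left v v' u) (fun c u v => form_smul_left c v u)
  have hB : ∀ u v, B u v = H v u := fun u v => rfl
  haveI : RingHomSurjective C.σ := ⟨fun a => ⟨C.σ a, C.invol a⟩⟩
  have hinj : Function.Injective B := fun u v h => ext_form C fun x => by
    have := LinearMap.congr_fun h x
    rw [hB, hB] at this
    rw [← form_conj C x u, this, form_conj C]
  let b := Module.Basis.span w.2.1
  let φ : Submodule.span F (Set.range w.1) →ₗ[F] Vn := b.constr ℕ w'.1
  have hφb : ∀ i, φ (b i) = w'.1 i := fun i => b.constr_basis ℕ _ i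
  have hφi : Function.Injective φ := by
    rw [← LinearMap.ker_eq_bot, LinearMap.ker_eq_bot']
    intro x hx
    have h : ∑ i, b.repr x i • w'.1 i = 0 := by
      have := congrArg φ (b.sum_repr x)
      rw [hx, map_sum] at this
      simpa only [map_smul, hφb] using this
    have h0 := Fintype.linearIndependent_iff.1 w'.2.1 _ h
    rw [← b.sum_repr x]
    simp [h0]
  have hz : ∀ x y : Submodule.span F (Set.range w.1), H (x : Vn) (y : Vn) = 0 ∧ H (φ x) (φ y) = 0 := by
    intro x y
    rw [← b.sum_repr x, ← b.sum_repr y]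
    have hb : ∀ i, ((b i : Submodule.span F (Set.range w.1)) : Vn) = w.1 i := fun i => by
      simp [b, Module.Basis.span_apply]
    constructor
    · simp only [AddSubmonoidClass.coe_finsetSum, Submodule.coe_smul, hb]
      exact form_span_zero C _ _ _ w.2.2
    · simp only [map_sum, map_smul, hφb]
      exact form_span_zero C _ _ _ w'.2.2
  obtain ⟨g, hg, hgφ⟩ := CfsgLib.Forms.witt_hermitian (B := B) C.ne_id C.invol hinj
    (fun u v => by rw [hB, hB, form_conj C]) (Submodule.span F (Set.range w.1)) φ hφi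
    (fun x x' => by rw [hB, hB, (hz x' x).1, (hz x' x).2])
  let M := LinearMap.toMatrix' (g : Vn →ₗ[F] Vn)
  let M' := LinearMap.toMatrix' (g.symm : Vn →ₗ[F] Vn)
  have hM : ∀ v, M *ᵥ v = g v := fun v => LinearMap.toMatrix'_mulVec _ v
  let U : GL (Fin n) F := ⟨M, M', by
    rw [← LinearMap.toMatrix'_comp]; simp, by
    rw [← LinearMap.toMatrix'_comp]; simp⟩
  refine ⟨⟨U, fun x y => ?_⟩, fun i => ?_⟩
  · change H (M *ᵥ x) (M *ᵥ y) = H x y
    rw [hM, hM]
    exact hg y x
  · change M *ᵥ w.1 i = _
    rw [hM, ← hφb i, ← hgφ (b i)]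
    simp [b, Module.Basis.span_apply]

/-- Extensions of a frame. -/
def ExtSet (n q : ℕ) {k : ℕ} (w : IsoFrame n q k F) : Set (Fin n → F) :=
  {u | u ∉ Submodule.span F (Set.range w.1) ∧
    (∀ i, Cfsg.hermForm n F q u (w.1 i) = 0) ∧ Cfsg.hermForm n F q u u = 0}

theorem card_extSet (C : Conj F q) {k : ℕ} (hk : 2 * k ≤ n) (w : IsoFrame n q k F) :
    Nat.card (ExtSet n q w) = (q ^ 2) ^ k * (normCard (n - 2 * k) q F (0 : F) - 1) := by
  classical
  obtain ⟨a, ha0, ha⟩ := CfsgLib.Hermitian.exists_norm C.ne_id C.invol (a := (-1 : F))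
    (neg_ne_zero.2 one_ne_zero) (by rw [map_neg, map_one])
  let e : (Fin k ⊕ Fin k) ⊕ Fin (n - 2 * k) ≃ Fin n := Fintype.equivOfCardEq (by simp; omega)
  have hsplit : ∀ x y : Vn, H x y =
      (∑ j, x (e (.inl (.inl j))) * C.σ (y (e (.inl (.inl j))))) +
      (∑ j, x (e (.inl (.inr j))) * C.σ (y (e (.inl (.inr j))))) +
      ∑ t, x (e (.inr t)) * C.σ (y (e (.inr t))) := by
    intro x y
    rw [form_eq C, ← e.sum_comp, Fintype.sum_sum_type, Fintype.sum_sum_type]
  let v : Fin k → Vn := fun j i => Sum.elim (Sum.elim (Pi.single j 1) (Pi.single j a)) 0 (e.symm i)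
  have hvl : ∀ j i, v j (e (.inl (.inl i))) = if i = j then 1 else 0 := fun j i => by
    simp [v, Pi.single_apply]
  have hvr : ∀ j i, v j (e (.inl (.inr i))) = if i = j then a else 0 := fun j i => by
    simp [v, Pi.single_apply]
  have hvt : ∀ j t, v j (e (.inr t)) = 0 := fun j t => by simp [v]
  have hHv : ∀ (x : Vn) (j : Fin k), H x (v j) =
      x (e (.inl (.inl j))) + x (e (.inl (.inr j))) * C.σ a := fun x j => by
    simp [hsplit, hvl, hvr, hvt, apply_ite C.σ]
  let std : IsoFrame n q k F := ⟨v, Fintype.linearIndependent_iff.2 fun c hc i => by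
      have := congrFun hc (e (.inl (.inl i)))
      simpa [Finset.sum_apply, hvl] using this,
    fun i j => by
      rw [hHv, hvl, hvr]
      split_ifs
      · linear_combination ha
      · simp⟩
  obtain ⟨g, hg⟩ := exists_move_isoFrame C std w
  have hmap : Nat.card (ExtSet n q w) = Nat.card (ExtSet n q std) := by
    let ge : Vn ≃ₗ[F] Vn :=
      { (mg g).mulVecLin with
        invFun := fun v => mg g⁻¹ *ᵥ v
        left_inv := fun v => GU_inv_cancel g v
        right_inv := fun v => by
          change mg g *ᵥ (mg g⁻¹ *ᵥ v) = v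
          simpa using GU_inv_cancel g⁻¹ v }
    refine (Nat.card_congr (ge.toEquiv.subtypeEquiv fun u => ?_)).symm
    have hge : ∀ u, ge u = mg g *ᵥ u := fun u => rfl
    change (_ ∧ _) ↔ (ge u ∉ _ ∧ (∀ i, H (ge u) (w.1 i) = 0) ∧ H (ge u) (ge u) = 0)
    have hs : Submodule.span F (Set.range w.1) =
        (Submodule.span F (Set.range std.1)).map (ge : Vn →ₗ[F] Vn) := by
      rw [Submodule.map_span, ← Set.range_comp]
      exact congrArg _ (congrArg Set.range (funext fun i => (hg i).symm))
    have h1 : ge u ∈ Submodule.span F (Set.range w.1) ↔ u ∈ Submodule.span F (Set.range std.1) := by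
      rw [hs, Submodule.mem_map]
      exact ⟨fun ⟨y, hy, he⟩ => ge.injective he ▸ hy, fun h => ⟨u, h, rfl⟩⟩
    rw [h1]
    simp only [hge, ← hg, GU_form g]
  rw [hmap]
  let P : Set Vn := {u | (∀ i, H u (v i) = 0) ∧ H u u = 0}
  have hP : Nat.card P = (q ^ 2) ^ k * normCard (n - 2 * k) q F (0 : F) := by
    have hnorm : ∀ u : Vn, (∀ i, H u (v i) = 0) → H u u =
        Cfsg.hermForm (n - 2 * k) F q (fun t => u (e (.inr t))) (fun t => u (e (.inr t))) := by
      intro u hu
      rw [hsplit, form_eq C, ← Finset.sum_add_distrib, Finset.sum_eq_zero fun j _ => ?_, zero_add]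
      have h := hu j
      rw [hHv] at h
      have h' : u (e (.inl (.inr j))) = a * u (e (.inl (.inl j))) := by
        linear_combination -a * h - (-(u (e (.inl (.inr j))))) * ha
      rw [h', map_mul]
      linear_combination u (e (.inl (.inl j))) * C.σ (u (e (.inl (.inl j)))) * ha
    let E : P ≃ (Fin k → F) × {t : Fin (n - 2 * k) → F // Cfsg.hermForm (n - 2 * k) F q t t = 0} :=
      { toFun := fun u => (fun j => u.1 (e (.inl (.inl j))), ⟨fun t => u.1 (e (.inr t)), by
          rw [← hnorm u.1 u.2.1]; exact u.2.2⟩)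
        invFun := fun x => ⟨fun i => Sum.elim (Sum.elim x.1 (fun j => a * x.1 j)) x.2.1 (e.symm i), by
          have hp : ∀ j, H (fun i => Sum.elim (Sum.elim x.1 (fun j => a * x.1 j)) x.2.1 (e.symm i)) (v j) = 0 := by
            intro j
            rw [hHv]
            simp
            linear_combination x.1 j * ha
          refine ⟨hp, ?_⟩
          rw [hnorm _ hp]
          simpa using x.2.2⟩
        left_inv := fun u => Subtype.ext (funext fun i => by
          obtain ⟨i, rfl⟩ := e.surjective i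
          rcases i with (j | j) | t
          · simp
          · have h := u.2.1 j
            rw [hHv] at h
            simp
            linear_combination a * h + (-(u.1 (e (.inl (.inr j))))) * ha
          · simp)
        right_inv := fun x => by simp }
    rw [Nat.card_congr E, Nat.card_prod, Nat.card_fun, Nat.card_fin, Nat.card_eq_fintype_card, C.card]
    rfl
  have hsub : (Submodule.span F (Set.range v) : Set Vn) ⊆ P := by
    intro u hu
    obtain ⟨c, rfl⟩ := (Submodule.mem_span_range_iff_exists_fun F).1 hu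
    have hl : ∀ x : Vn, (∀ i, H (v i) x = 0) → H (∑ i, c i • v i) x = 0 := fun x hx => by
      rw [form_sum_left, Finset.sum_eq_zero fun i _ => by rw [hx, mul_zero]]
    refine ⟨fun i => hl _ fun j => std.2.2 j i, hl _ fun j => ?_⟩
    rw [← form_conj C, hl _ (fun i => std.2.2 i j), map_zero]
  have hE : ExtSet n q std = P \ (Submodule.span F (Set.range v) : Set Vn) := by
    ext u
    exact ⟨fun h => ⟨h.2, h.1⟩, fun h => ⟨h.2, h.1⟩⟩
  have hc : Nat.card (Submodule.span F (Set.range v)) = (q ^ 2) ^ k := by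
    rw [Module.natCard_eq_pow_finrank (K := F), finrank_span_eq_card std.2.1, Fintype.card_fin,
      Nat.card_eq_fintype_card, C.card]
  rw [Nat.card_coe_set_eq, hE, Set.ncard_sdiff hsub, ← Nat.card_coe_set_eq P, hP,
    ← Nat.card_coe_set_eq]
  change _ - Nat.card (Submodule.span F (Set.range v)) = _
  rw [hc, Nat.mul_sub, mul_one]

/-- `|GU_m|`, in closed form. -/
def guOrd (q m : ℕ) : ℕ :=
  q ^ (m * (m - 1) / 2) * ∏ i ∈ Finset.range m, (if Even i then q ^ (i + 1) + 1 else q ^ (i + 1) - 1)

theorem normCard_pred (C : Conj F q) (j : ℕ) :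
    normCard (j + 2) q F (0 : F) - 1 =
      (if Even (j + 1) then q ^ (j + 1 + 1) + 1 else q ^ (j + 1 + 1) - 1) *
        (if Even j then q ^ (j + 1) + 1 else q ^ (j + 1) - 1) := by
  rw [card_isotropic C, Nat.add_sub_cancel]
  rcases Nat.even_or_odd j with h | h
  · simp [Nat.even_add_one, h]
  · have := Nat.not_even_iff_odd.2 h
    simp [Nat.even_add_one, this]

theorem guOrd_step (C : Conj F q) (j : ℕ) :
    guOrd q (j + 2) = q ^ (2 * j + 1) * (normCard (j + 2) q F (0 : F) - 1) * guOrd q j := by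
  rw [normCard_pred C, guOrd, guOrd, Finset.prod_range_succ, Finset.prod_range_succ]
  have he : (j + 2) * (j + 2 - 1) / 2 = 2 * j + 1 + j * (j - 1) / 2 := by
    rw [← Finset.sum_range_id (j + 2), ← Finset.sum_range_id j, Finset.sum_range_succ,
      Finset.sum_range_succ]
    omega
  rw [he, pow_add]
  ring

/-- The frame count times the closed form of the stabiliser order is `|GU_n|`. -/
theorem card_isoFrame (C : Conj F q) : ∀ k, 2 * k ≤ n →
    Nat.card (IsoFrame n q k F) * (q ^ (k * (2 * n - 3 * k)) * guOrd q (n - 2 * k)) = guOrd q n := by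
  classical
  intro k
  induction k with
  | zero =>
    intro _
    have : Nat.card (IsoFrame n q 0 F) = 1 := Nat.card_eq_one_iff_unique.2
      ⟨⟨fun a b => Subtype.ext (funext fun i => i.elim0)⟩,
        ⟨⟨fun i => i.elim0, linearIndependent_empty_type, fun i => i.elim0⟩⟩⟩
    simp [this]
  | succ k ih =>
    intro hk
    let e : IsoFrame n q (k + 1) F ≃ Σ w : IsoFrame n q k F, ExtSet n q w :=
      { toFun := fun w => ⟨⟨Fin.init w.1,
            (linearIndependent_finSnoc.1 ((Fin.snoc_init_self w.1).symm ▸ w.2.1)).1,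
            fun i j => w.2.2 _ _⟩, ⟨w.1 (Fin.last k),
            (linearIndependent_finSnoc.1 ((Fin.snoc_init_self w.1).symm ▸ w.2.1)).2,
            fun i => w.2.2 _ _, w.2.2 _ _⟩⟩
        invFun := fun p => ⟨Fin.snoc p.1.1 p.2.1,
          linearIndependent_finSnoc.2 ⟨p.1.2.1, p.2.2.1⟩, fun i j => by
            refine Fin.lastCases (Fin.lastCases ?_ (fun j => ?_) j)
              (fun i => Fin.lastCases ?_ (fun j => ?_) j) i <;>
              simp only [Fin.snoc_last, Fin.snoc_castSucc]
            · exact p.2.2.2.2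
            · exact p.2.2.2.1 j
            · rw [← form_conj C, p.2.2.2.1, map_zero]
            · exact p.1.2.2 i j⟩
        left_inv := fun w => Subtype.ext (Fin.snoc_init_self w.1)
        right_inv := fun p => by
          obtain ⟨⟨w, hw⟩, ⟨u, hu⟩⟩ := p
          exact Sigma.subtype_ext (Subtype.ext (Fin.init_snoc (α := fun _ => Vn) u w)) (by simp) }
    have : Fintype (IsoFrame n q k F) := Fintype.ofFinite _
    rw [Nat.card_congr e, Nat.card_sigma,
      Finset.sum_congr rfl (fun w _ => card_extSet C (by omega : 2 * k ≤ n) w),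
      Finset.sum_const, smul_eq_mul, Finset.card_univ, ← Nat.card_eq_fintype_card,
      ← ih (by omega)]
    obtain ⟨j, rfl⟩ : ∃ j, n = 2 * k + 2 + j := ⟨n - (2 * k + 2), by omega⟩
    rw [show 2 * k + 2 + j - 2 * (k + 1) = j by omega, show 2 * k + 2 + j - 2 * k = j + 2 by omega,
      guOrd_step C, show 2 * (2 * k + 2 + j) - 3 * (k + 1) = k + 1 + 2 * j by omega,
      show 2 * (2 * k + 2 + j) - 3 * k = k + 4 + 2 * j by omega, ← pow_mul]
    ring

/-- Stabiliser of a subspace in `GU`. -/
abbrev stabGU (n q : ℕ) (W : Submodule F (Fin n → F)) : Subgroup (Cfsg.GU n F q) :=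
  Cfsg.stabilizing ((Units.coeHom (Matrix (Fin n) (Fin n) F)).comp (Cfsg.GU n F q).subtype)
    (W : Set (Fin n → F))

theorem card_stabGU (C : Conj F q) {k : ℕ} (hk : 2 * k ≤ n) (W : Submodule F Vn)
    (hWk : Module.finrank F W = k) (hW : ∀ u ∈ W, ∀ v ∈ W, H u v = 0) :
    Nat.card (stabGU n q W) =
      q ^ (k * (2 * n - 3 * k)) * guOrd q (n - 2 * k) *
        ∏ i : Fin k, ((q ^ 2) ^ k - (q ^ 2) ^ (i : ℕ)) := by
  classical
  let b := Module.finBasisOfFinrankEq F W hWk
  let w : IsoFrame n q k F := ⟨fun i => (b i : Vn),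
    b.linearIndependent.map' W.subtype W.ker_subtype, fun i j => hW _ (b i).2 _ (b j).2⟩
  have hspan : Submodule.span F (Set.range w.1) = W := by
    refine Submodule.eq_of_le_of_finrank_le (Submodule.span_le.2 ?_) ?_
    · rintro _ ⟨i, rfl⟩; exact (b i).2
    · rw [finrank_span_eq_card w.2.1, Fintype.card_fin, hWk]
  let Bases := {v : Fin k → W // LinearIndependent F v}
  let toFrame : Bases → IsoFrame n q k F := fun v => ⟨fun i => (v.1 i : Vn),
    v.2.map' W.subtype W.ker_subtype, fun i j => hW _ (v.1 i).2 _ (v.1 j).2⟩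
  let St := {A : GU // ∀ i, mg A *ᵥ w.1 i = w.1 i}
  have hmaps : ∀ A : GU, (∀ i, mg A *ᵥ w.1 i ∈ W) → A ∈ stabGU n q W := by
    intro A hA
    have hi : Function.Injective fun v => mg A *ᵥ v :=
      fun a c h => by rw [← GU_inv_cancel A a, ← GU_inv_cancel A c]; exact congrArg _ h
    have hle : W.map (mg A).mulVecLin = W := by
      refine Submodule.eq_of_le_of_finrank_eq ?_ ?_
      · conv_lhs => rw [← hspan]
        rw [Submodule.map_span, Submodule.span_le]
        rintro _ ⟨_, ⟨i, rfl⟩, rfl⟩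
        exact hA i
      · exact (LinearEquiv.finrank_eq (Submodule.equivMapOfInjective _ hi W)).symm
    intro v
    change v ∈ W ↔ mg A *ᵥ v ∈ W
    constructor
    · intro hv
      rw [← hle]
      exact Submodule.mem_map_of_mem hv
    · intro hv
      rw [← hle] at hv
      obtain ⟨v', hv', e⟩ := hv
      exact hi e ▸ hv'
  choose sec hsec using fun p : IsoFrame n q k F => exists_move_isoFrame C w p
  have hsplit : ∀ (A : GU) (p : IsoFrame n q k F), IsoFrame.map A w = p →
      ∀ i, mg ((sec p)⁻¹ * A) *ᵥ w.1 i = w.1 i := by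
    rintro A p rfl i
    rw [GU_mul_mulVec]
    conv_lhs => rw [show mg A *ᵥ w.1 i = mg (sec (IsoFrame.map A w)) *ᵥ w.1 i from (hsec (IsoFrame.map A w) i).symm]
    exact GU_inv_cancel _ _
  have himg : ∀ (p : IsoFrame n q k F) (s : St), IsoFrame.map (sec p * s.1) w = p := fun p s =>
    Subtype.ext (funext fun i => by
      change mg (sec p * s.1) *ᵥ w.1 i = _
      rw [GU_mul_mulVec, s.2 i, hsec])
  have hG : Nat.card GU = Nat.card (IsoFrame n q k F) * Nat.card St := by
    rw [← Nat.card_prod]
    exact Nat.card_congr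
      { toFun := fun A => (IsoFrame.map A w, ⟨(sec (IsoFrame.map A w))⁻¹ * A, hsplit A _ rfl⟩)
        invFun := fun x => sec x.1 * x.2.1
        left_inv := fun A => mul_inv_cancel_left _ _
        right_inv := fun x => by
          refine Prod.ext (himg _ _) (Subtype.ext ?_)
          change (sec (IsoFrame.map (sec x.1 * x.2.1) w))⁻¹ * (sec x.1 * x.2.1) = x.2.1
          rw [himg, inv_mul_cancel_left] }
  let img : stabGU n q W → Bases := fun A =>
    ⟨fun i => ⟨mg A.1 *ᵥ w.1 i, (A.2 (w.1 i)).1 (b i).2⟩,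
      LinearIndependent.of_comp W.subtype (IsoFrame.map A.1 w).2.1⟩
  have hE : Nat.card (stabGU n q W) = Nat.card Bases * Nat.card St := by
    rw [← Nat.card_prod]
    exact Nat.card_congr
      { toFun := fun A => (img A, ⟨(sec (toFrame (img A)))⁻¹ * A.1, hsplit A.1 _ rfl⟩)
        invFun := fun x => ⟨sec (toFrame x.1) * x.2.1, hmaps _ fun i => by
          rw [GU_mul_mulVec, x.2.2 i, hsec]
          exact (x.1.1 i).2⟩
        left_inv := fun A => Subtype.ext (mul_inv_cancel_left _ _)
        right_inv := fun x => by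
          have hi : ∀ h, toFrame (img ⟨sec (toFrame x.1) * x.2.1, h⟩) = toFrame x.1 := fun h =>
            himg (toFrame x.1) x.2
          refine Prod.ext (Subtype.ext (funext fun i => Subtype.ext
            (congrFun (congrArg Subtype.val (hi _)) i))) (Subtype.ext ?_)
          change (sec (toFrame (img ⟨sec (toFrame x.1) * x.2.1, _⟩)))⁻¹ *
            (sec (toFrame x.1) * x.2.1) = x.2.1
          rw [hi, inv_mul_cancel_left] }
  have hBases : Nat.card Bases = ∏ i : Fin k, ((q ^ 2) ^ k - (q ^ 2) ^ (i : ℕ)) := by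
    have := Fintype.ofFinite W
    rw [card_linearIndependent (K := F) (le_of_eq hWk.symm), hWk, C.card]
  have hSt : Nat.card St = q ^ (k * (2 * n - 3 * k)) * guOrd q (n - 2 * k) := by
    have : Nonempty (IsoFrame n q k F) := ⟨w⟩
    apply Nat.eq_of_mul_eq_mul_left (Nat.card_pos (α := IsoFrame n q k F))
    rw [card_isoFrame C k hk, ← hG, card_GU C n]
    rfl
  rw [hE, hBases, hSt, mul_comm]

/-- Every unitary determinant occurs on the stabiliser. -/
theorem exists_stabGU_det (C : Conj F q) (hn : 1 ≤ n) (W : Submodule F Vn)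
    (hW : ∀ u ∈ W, ∀ v ∈ W, H u v = 0) {u : Fˣ} (hu : u ^ (q + 1) = 1) :
    ∃ A ∈ stabGU n q W, GeneralLinearGroup.det A.1 = u := by
  classical
  have hu' : (u : F) * C.σ (u : F) = 1 := by
    have := congrArg Units.val hu
    rw [Units.val_pow_eq_pow_val, pow_succ'] at this
    rw [C.pow]; simpa using this
  by_cases hW0 : W = ⊥
  · subst hW0
    let i₀ : Fin n := ⟨0, hn⟩
    let d : Fin n → F := Function.update 1 i₀ (u : F)
    have hd : (Matrix.diagonal d).det = (u : F) := by
      rw [Matrix.det_diagonal, Finset.prod_update_of_mem (Finset.mem_univ _)]; simp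
    let A : GU := ⟨GeneralLinearGroup.mkOfDetNeZero _ (fun h => u.ne_zero (hd.symm.trans h)), fun x y => by
      change H (Matrix.diagonal d *ᵥ x) (Matrix.diagonal d *ᵥ y) = _
      rw [form_eq C, form_eq C]
      refine Finset.sum_congr rfl fun i _ => ?_
      rw [Matrix.mulVec_diagonal, Matrix.mulVec_diagonal, map_mul]
      have hdi : d i * C.σ (d i) = 1 := by
        by_cases hi : i = i₀
        · subst hi; simp [d, hu']
        · simp [d, Function.update_of_ne hi]
      linear_combination (x i * C.σ (y i)) * hdi⟩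
    refine ⟨A, fun v => ?_, Units.ext hd⟩
    change v ∈ (⊥ : Submodule F Vn) ↔ mg A *ᵥ v ∈ (⊥ : Submodule F Vn)
    simp only [Submodule.mem_bot]
    refine ⟨fun h => by rw [h, Matrix.mulVec_zero], fun h => ?_⟩
    rw [← GU_inv_cancel A v, h, Matrix.mulVec_zero]
  obtain ⟨w, hw, hw0⟩ := Submodule.exists_mem_ne_zero_of_ne_bot hW0
  have hww := hW w hw w hw
  obtain ⟨y₀, hy₀⟩ := exists_dual C hw0
  obtain ⟨t, ht⟩ := exists_trace_one C
  obtain ⟨y, hyy, hwy, hyw⟩ : ∃ y, H y y = 0 ∧ H w y = 1 ∧ H y w = 1 := by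
    have hwy₀ : H w y₀ = 1 := by rw [← form_conj C, hy₀, map_one]
    refine ⟨y₀ + (-(t * H y₀ y₀)) • w, ?_, ?_, ?_⟩
    · simp only [form_add_left, form_add_right C, form_smul_left, form_smul_right C, map_neg,
        map_mul, form_conj C, hww, hwy₀, hy₀]
      linear_combination -(H y₀ y₀) * ht
    · rw [form_add_right C, form_smul_right C, hww, hwy₀, mul_zero, add_zero]
    · rw [form_add_left, form_smul_left, hww, hy₀, mul_zero, add_zero]
  obtain ⟨l, hl0, hl⟩ : ∃ l : F, l ≠ 0 ∧ (u : F) * C.σ l = l := by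
    by_contra hno
    push Not at hno
    have hz : ∀ a : F, a + (u : F) * C.σ a = 0 := fun a => by
      by_contra h
      refine hno _ h ?_
      rw [map_add, map_mul, C.invol]
      linear_combination a * hu'
    have h1 := hz 1
    rw [map_one, mul_one] at h1
    refine C.ne_id (RingHom.ext fun a => ?_)
    rw [RingHom.id_apply]
    linear_combination -(hz a) + C.σ a * h1
  have hl' : C.σ l ≠ 0 := (map_ne_zero C.σ).2 hl0
  set α := l - 1 with hα
  set β := (C.σ l)⁻¹ - 1 with hβ
  let M := rankOne (α • w) y q * rankOne (β • y) w q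
  have hM : ∀ x, M *ᵥ x = x + (β * H x w) • y + (α * H x y) • w := by
    intro x
    rw [← Matrix.mulVec_mulVec, rankOne_mulVec, rankOne_mulVec, form_add_left, form_smul_left,
      form_smul_left, hyy]
    module
  have hdet : M.det = (u : F) := by
    rw [Matrix.det_mul, rankOne_det, rankOne_det, form_smul_left, form_smul_left, hwy, hyw, hα, hβ]
    field_simp
    linear_combination -hl
  have hβσ : C.σ β = l⁻¹ - 1 := by rw [hβ, map_sub, map_inv₀, C.invol, map_one]
  let A : GU := ⟨GeneralLinearGroup.mkOfDetNeZero M (fun h => u.ne_zero (hdet.symm.trans h)), fun x z => by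
    change H (M *ᵥ x) (M *ᵥ z) = H x z
    rw [hM, hM]
    simp only [form_add_left, form_add_right C, form_smul_left, form_smul_right C, map_mul,
      hyy, hww, hwy, hyw, form_conj C]
    have h1 : α + C.σ β + α * C.σ β = 0 := by rw [hβσ, hα]; field_simp; ring
    have h2 : β + C.σ α + β * C.σ α = 0 := by
      have := congrArg C.σ h1
      simp only [map_add, map_mul, C.invol, map_zero] at this
      linear_combination this
    linear_combination (H x y * H w z) * h1 + (H x w * H y z) * h2⟩
  refine ⟨A, fun v => ?_, Units.ext hdet⟩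
  change v ∈ W ↔ M *ᵥ v ∈ W
  have key : ∀ x ∈ W, M *ᵥ x ∈ W := fun x hx => by
    rw [hM, hW x hx w hw, mul_zero, zero_smul, add_zero]
    exact W.add_mem hx (W.smul_mem _ hw)
  refine ⟨key v, fun h => ?_⟩
  have hinjM : Function.Injective fun x => M *ᵥ x :=
    fun a c h => by rw [← GU_inv_cancel A a, ← GU_inv_cancel A c]; exact congrArg _ h
  obtain ⟨v', hv', he⟩ : ∃ v' ∈ W, M *ᵥ v' = M *ᵥ v := by
    have hle : W.map M.mulVecLin = W := Submodule.eq_of_le_of_finrank_eq
      (by rintro _ ⟨x, hx, rfl⟩; exact key x hx)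
      (LinearEquiv.finrank_eq (Submodule.equivMapOfInjective _ hinjM W)).symm
    rw [← hle] at h
    exact h
  exact hinjM he ▸ hv'

/-- The order of the stabiliser in `SU`. -/
theorem card_stabSU_mul (C : Conj F q) (hn : 1 ≤ n) (W : Submodule F Vn)
    (hW : ∀ u ∈ W, ∀ v ∈ W, H u v = 0) :
    (q + 1) * Nat.card ↥((Cfsg.stabilizing (Cfsg.slToMat n F) (W : Set Vn)).subgroupOf (Cfsg.SU n F q)) =
      Nat.card (stabGU n q W) := by
  classical
  let f : stabGU n q W →* Fˣ :=
    GeneralLinearGroup.det.comp ((Cfsg.GU n F q).subtype.comp (stabGU n q W).subtype)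
  have hker : Nat.card f.ker =
      Nat.card ↥((Cfsg.stabilizing (Cfsg.slToMat n F) (W : Set Vn)).subgroupOf (Cfsg.SU n F q)) := by
    refine Nat.card_congr ?_
    exact
      { toFun := fun g => ⟨⟨⟨g.1.1.1.1, congrArg Units.val (MonoidHom.mem_ker.1 g.2)⟩, g.1.1.2⟩,
          Subgroup.mem_subgroupOf.2 g.1.2⟩
        invFun := fun s => ⟨⟨⟨SpecialLinearGroup.toGL s.1.1, s.1.2⟩, Subgroup.mem_subgroupOf.1 s.2⟩,
          Units.ext s.1.1.2⟩
        left_inv := fun g => Subtype.ext (Subtype.ext (Subtype.ext (Units.ext rfl)))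
        right_inv := fun s => Subtype.ext (Subtype.ext (Subtype.ext rfl)) }
  have hrange : f.range = (powMonoidHom (q + 1) : Fˣ →* Fˣ).ker := by
    refine le_antisymm ?_ ?_
    · rintro _ ⟨g, rfl⟩
      rw [MonoidHom.mem_ker]
      exact det_pow C g.1
    · intro u hu
      obtain ⟨A, hA, hd⟩ := exists_stabGU_det C hn W hW (by simpa using MonoidHom.mem_ker.1 hu)
      exact ⟨⟨A, hA⟩, hd⟩
  have hidx : f.ker.index = q + 1 := by
    rw [Subgroup.index_ker, hrange]
    refine Eq.trans ?_ (card_norm_one C)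
    exact Nat.card_congr (Equiv.subtypeEquivRight fun u => by simp [MonoidHom.mem_ker])
  rw [← hker, ← hidx, mul_comm]
  exact Subgroup.card_mul_index _

end CfsgLib.UGeom
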