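import Mathlib
import Cfsg.Agent.UGeom.Count
set_option autoImplicit false

/-!
The involutions of `SU_3(q)`, `q` odd, as the non-isotropic points of the projective plane.
-/

namespace CfsgLib.UGeom.Invol

open Matrix

variable {F : Type*} [Field F] [Fintype F] {q : ℕ}

local notation "V" => (Fin 3 → F)
local notation "H" => Cfsg.hermForm 3 F q
local notation "S" => Cfsg.SU 3 F q

/-- The matrix of an element of `SU_3`. -/
abbrev mat (g : S) : Matrix (Fin 3) (Fin 3) F := g.1.1

omit [Fintype F] in
theorem mat_mul_apply (g h : S) (x : V) : mat (g * h) *ᵥ x = mat g *ᵥ (mat h *ᵥ x) := by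
  rw [Matrix.mulVec_mulVec]; rfl

omit [Fintype F] in
theorem mat_one_apply (x : V) : mat (1 : S) *ᵥ x = x := Matrix.one_mulVec x

omit [Fintype F] in
theorem mat_inv_apply (g : S) (x : V) : mat g *ᵥ (mat g⁻¹ *ᵥ x) = x := by
  rw [← mat_mul_apply, mul_inv_cancel, mat_one_apply]

omit [Fintype F] in
theorem SU_form (g : S) (x y : V) : H (mat g *ᵥ x) (mat g *ᵥ y) = H x y := g.2 x y

omit [Fintype F] in
theorem ext_mulVec {g h : S} (e : ∀ x : V, mat g *ᵥ x = mat h *ᵥ x) : g = h :=
  Subtype.ext (Subtype.ext (Matrix.ext_iff_mulVec.2 e))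

theorem two_ne_zero' (C : Conj F q) (hq : Odd q) : (2 : F) ≠ 0 := by
  intro h
  haveI : CharP F 2 := CharTwo.of_one_ne_zero_of_two_eq_zero one_ne_zero h
  obtain ⟨n, -, hn⟩ := FiniteField.card F 2
  have h2 : 2 ∣ Fintype.card F := hn ▸ dvd_pow_self 2 n.ne_zero
  rw [C.card] at h2
  exact (Nat.not_even_iff_odd.2 hq) (even_iff_two_dvd.2 (Nat.prime_two.dvd_of_dvd_pow h2))

theorem conj_self (C : Conj F q) (v : V) : C.σ (H v v) = H v v := form_conj C v v

theorem form_eq_zero_comm (C : Conj F q) {v w : V} (h : H v w = 0) : H w v = 0 := by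
  rw [← form_conj C v w, h, map_zero]

/-! ### The involution with fixed point `v` -/

theorem inv_cond (C : Conj F q) (h2 : (2 : F) ≠ 0) (v : V) (hv : H v v ≠ 0) :
    (-2 / H v v) + C.σ (-2 / H v v) + (-2 / H v v) * C.σ (-2 / H v v) * H v v = 0 := by
  have : C.σ (2 : F) = 2 := map_ofNat _ 2
  rw [map_div₀, map_neg, this, conj_self C]
  field_simp
  ring

/-- `x ↦ (2 h(x,v)/h(v,v)) v - x`. -/
noncomputable def invol (C : Conj F q) (h2 : (2 : F) ≠ 0) (v : V) (hv : H v v ≠ 0) : S :=
  ⟨⟨- qrefl 3 q v (-2 / H v v), by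
      rw [Matrix.det_neg, qrefl_det]
      simp only [Fintype.card_fin]
      rw [div_mul_cancel₀ _ hv]
      ring⟩,
    fun x y => by
      show H ((- qrefl 3 q v (-2 / H v v)) *ᵥ x) ((- qrefl 3 q v (-2 / H v v)) *ᵥ y) = H x y
      rw [Matrix.neg_mulVec, Matrix.neg_mulVec, ← qrefl_form C v _ (inv_cond C h2 v hv) x y]
      simp [Cfsg.hermForm, ← C.pow]⟩

theorem invol_apply (C : Conj F q) (h2 : (2 : F) ≠ 0) (v : V) (hv : H v v ≠ 0) (x : V) :
    mat (invol C h2 v hv) *ᵥ x = (2 * H x v / H v v) • v - x := by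
  show (- qrefl 3 q v (-2 / H v v)) *ᵥ x = _
  rw [Matrix.neg_mulVec, qrefl_mulVec]
  rw [neg_add, ← neg_smul, sub_eq_add_neg, add_comm]
  congr 2
  field_simp

theorem invol_self (C : Conj F q) (h2 : (2 : F) ≠ 0) (v : V) (hv : H v v ≠ 0) :
    mat (invol C h2 v hv) *ᵥ v = v := by
  rw [invol_apply, mul_div_cancel_right₀ _ hv]
  module

theorem invol_orth (C : Conj F q) (h2 : (2 : F) ≠ 0) (v : V) (hv : H v v ≠ 0) {x : V} (hx : H x v = 0) :
    mat (invol C h2 v hv) *ᵥ x = -x := by
  rw [invol_apply, hx, mul_zero, zero_div, zero_smul, zero_sub]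

theorem invol_mul_self (C : Conj F q) (h2 : (2 : F) ≠ 0) (v : V) (hv : H v v ≠ 0) :
    invol C h2 v hv * invol C h2 v hv = 1 := by
  refine ext_mulVec fun x => ?_
  rw [mat_mul_apply, mat_one_apply, invol_apply, invol_apply, form_sub_left, form_smul_left,
    div_mul_cancel₀ _ hv]
  have : (2 * (2 * H x v - H x v) / H v v) = (2 * H x v / H v v) := by ring
  rw [this]
  abel

theorem invol_ne_one (C : Conj F q) (h2 : (2 : F) ≠ 0) (v : V) (hv : H v v ≠ 0) :
    invol C h2 v hv ≠ 1 := by
  intro h
  obtain ⟨u, hu, huv⟩ : ∃ u : V, u ≠ 0 ∧ H u v = 0 := by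
    let f : V →ₗ[F] F :=
      { toFun := fun x => H x v, map_add' := fun x y => form_add_left x y v,
        map_smul' := fun a x => form_smul_left a x v }
    have hf : ¬ Function.Injective f := fun hi => by
      have := LinearMap.finrank_le_finrank_of_injective hi
      simp at this
    rw [← LinearMap.ker_eq_bot] at hf
    obtain ⟨u, hu, hu0⟩ := (Submodule.ne_bot_iff _).1 hf
    exact ⟨u, hu0, hu⟩
  have h1 := invol_orth C h2 v hv huv
  rw [h, mat_one_apply] at h1
  have : (2 : F) • u = 0 := by rw [two_smul]; nth_rewrite 2 [h1]; exact add_neg_cancel u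
  exact hu ((smul_eq_zero.1 this).resolve_left h2)

theorem invol_smul (C : Conj F q) (h2 : (2 : F) ≠ 0) (v : V) (hv : H v v ≠ 0) {c : F} (hc : c ≠ 0)
    (hcv : H (c • v) (c • v) ≠ 0) : invol C h2 (c • v) hcv = invol C h2 v hv := by
  refine ext_mulVec fun x => ?_
  rw [invol_apply, invol_apply, smul_smul, form_smul_left, form_smul_right C, form_smul_right C]
  have hc' : C.σ c ≠ 0 := (map_ne_zero C.σ).2 hc
  congr 2
  field_simp

theorem invol_eq_iff (C : Conj F q) (h2 : (2 : F) ≠ 0) (v w : V) (hv : H v v ≠ 0) (hw : H w w ≠ 0) :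
    invol C h2 v hv = invol C h2 w hw ↔ ∃ c : F, c ≠ 0 ∧ w = c • v := by
  constructor
  · intro h
    have h1 := invol_self C h2 w hw
    rw [← h, invol_apply, sub_eq_iff_eq_add, ← two_smul F] at h1
    have h3 : w = ((2 : F)⁻¹ * (2 * H w v / H v v)) • v := by
      rw [← smul_smul, h1, smul_smul, inv_mul_cancel₀ h2, one_smul]
    refine ⟨_, fun h0 => hw ?_, h3⟩
    rw [h0, zero_smul] at h3
    rw [h3, form_zero_left]
  · rintro ⟨c, hc, rfl⟩
    exact (invol_smul C h2 v hv hc hw).symm

theorem conj_invol (C : Conj F q) (h2 : (2 : F) ≠ 0) (g : S) (v : V) (hv : H v v ≠ 0) :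
    g * invol C h2 v hv * g⁻¹ = invol C h2 (mat g *ᵥ v) (by rwa [SU_form]) := by
  refine ext_mulVec fun x => ?_
  rw [mat_mul_apply, mat_mul_apply, invol_apply, invol_apply, Matrix.mulVec_sub, Matrix.mulVec_smul,
    mat_inv_apply, SU_form]
  congr 3
  rw [← SU_form g, mat_inv_apply]

theorem commute_iff (C : Conj F q) (h2 : (2 : F) ≠ 0) (v w : V) (hv : H v v ≠ 0) (hw : H w w ≠ 0) :
    Commute (invol C h2 v hv) (invol C h2 w hw) ↔
      invol C h2 w hw = invol C h2 v hv ∨ H w v = 0 := by
  constructor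
  · intro h
    have h1 : invol C h2 v hv * invol C h2 w hw * (invol C h2 v hv)⁻¹ = invol C h2 w hw := by
      rw [h.eq, mul_inv_cancel_right]
    rw [conj_invol, invol_eq_iff] at h1
    obtain ⟨c, hc, hcw⟩ := h1
    by_cases hH : H w v = 0
    · exact Or.inr hH
    refine Or.inl ((invol_eq_iff C h2 v w hv hw).2 ?_).symm
    rw [invol_apply, smul_sub, smul_smul] at hcw
    have h4 : (c * (2 * H w v / H v v)) • v = (1 + c) • w := by
      rw [add_smul, one_smul]; exact (sub_eq_iff_eq_add.1 hcw.symm)
    have h5 : c * (2 * H w v / H v v) ≠ 0 := mul_ne_zero hc (div_ne_zero (mul_ne_zero h2 hH) hv)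
    have h6 : 1 + c ≠ 0 := by
      intro h0
      rw [h0, zero_smul] at h4
      exact hv (by rw [(smul_eq_zero.1 h4).resolve_left h5, form_zero_left])
    refine ⟨(1 + c)⁻¹ * (c * (2 * H w v / H v v)), mul_ne_zero (inv_ne_zero h6) h5, ?_⟩
    rw [← smul_smul, h4, smul_smul, inv_mul_cancel₀ h6, one_smul]
  · rintro (h | h)
    · rw [h]
    · refine ext_mulVec fun x => ?_
      have h' : H v w = 0 := form_eq_zero_comm C h
      rw [mat_mul_apply, mat_mul_apply, invol_apply, invol_apply, invol_apply, invol_apply]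
      simp only [form_sub_left, form_smul_left, h, h', mul_zero, zero_sub]
      rw [mul_neg, neg_div, neg_smul, mul_neg, neg_div, neg_smul]
      abel

/-! ### Orthogonal frames -/

/-- Three pairwise orthogonal non-isotropic vectors. -/
structure Frame (q : ℕ) (a b c : Fin 3 → F) : Prop where
  na : Cfsg.hermForm 3 F q a a ≠ 0
  nb : Cfsg.hermForm 3 F q b b ≠ 0
  nc : Cfsg.hermForm 3 F q c c ≠ 0
  ab : Cfsg.hermForm 3 F q a b = 0
  ac : Cfsg.hermForm 3 F q a c = 0
  bc : Cfsg.hermForm 3 F q b c = 0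

theorem Frame.expand (C : Conj F q) {a b c : V} (h : Frame q a b c) (x : V) :
    x = (H x a / H a a) • a + (H x b / H b b) • b + (H x c / H c c) • c := by
  have ba := form_eq_zero_comm C h.ab
  have ca := form_eq_zero_comm C h.ac
  have cb := form_eq_zero_comm C h.bc
  have hli : LinearIndependent F ![a, b, c] := by
    rw [Fintype.linearIndependent_iff]
    intro g hg
    rw [Fin.sum_univ_three] at hg
    simp only [Matrix.cons_val_zero, Matrix.cons_val_one, Matrix.cons_val] at hg
    have e : ∀ y : V, H (g 0 • a + g 1 • b + g 2 • c) y = 0 := fun y => by rw [hg, form_zero_left]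
    simp only [form_add_left, form_smul_left] at e
    have ea := e a; have eb := e b; have ec := e c
    simp only [h.ab, h.ac, h.bc, ba, ca, cb, mul_zero, add_zero, zero_add, mul_eq_zero, h.na, h.nb,
      h.nc, or_false] at ea eb ec
    intro i
    fin_cases i <;> assumption
  have hspan : x ∈ Submodule.span F (Set.range ![a, b, c]) := by
    rw [hli.span_eq_top_of_card_eq_finrank' (by simp)]
    exact Submodule.mem_top
  obtain ⟨g, hg⟩ := (Submodule.mem_span_range_iff_exists_fun F).1 hspan
  rw [Fin.sum_univ_three] at hg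
  simp only [Matrix.cons_val_zero, Matrix.cons_val_one, Matrix.cons_val] at hg
  subst hg
  simp only [form_add_left, form_smul_left, h.ab, h.ac, h.bc, ba, ca, cb, mul_zero, add_zero,
    zero_add, mul_div_cancel_right₀ _ h.na, mul_div_cancel_right₀ _ h.nb, mul_div_cancel_right₀ _ h.nc]

theorem Frame.rotate (C : Conj F q) {a b c : V} (h : Frame q a b c) : Frame q b c a :=
  ⟨h.nb, h.nc, h.na, h.bc, form_eq_zero_comm C h.ab, form_eq_zero_comm C h.ac⟩

theorem exists_orth_two (a b : V) : ∃ u : V, u ≠ 0 ∧ H u a = 0 ∧ H u b = 0 := by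
  let f : V →ₗ[F] F × F :=
    { toFun := fun x => (H x a, H x b)
      map_add' := fun x y => by simp [form_add_left]
      map_smul' := fun r x => by simp [form_smul_left] }
  have hf : ¬ Function.Injective f := fun hi => by
    have := LinearMap.finrank_le_finrank_of_injective hi
    simp at this
  rw [← LinearMap.ker_eq_bot] at hf
  obtain ⟨u, hu, hu0⟩ := (Submodule.ne_bot_iff _).1 hf
  exact ⟨u, hu0, congrArg Prod.fst hu, congrArg Prod.snd hu⟩

theorem exists_frame (C : Conj F q) {a b : V} (ha : H a a ≠ 0) (hb : H b b ≠ 0) (hab : H a b = 0) :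
    ∃ c : V, Frame q a b c := by
  obtain ⟨c, hc0, hca, hcb⟩ := exists_orth_two (q := q) a b
  refine ⟨c, ha, hb, fun hcc => ?_, hab, form_eq_zero_comm C hca, form_eq_zero_comm C hcb⟩
  have hli : LinearIndependent F ![a, b, c] := by
    rw [Fintype.linearIndependent_iff]
    intro g hg
    rw [Fin.sum_univ_three] at hg
    simp only [Matrix.cons_val_zero, Matrix.cons_val_one, Matrix.cons_val] at hg
    have e : ∀ y : V, H (g 0 • a + g 1 • b + g 2 • c) y = 0 := fun y => by rw [hg, form_zero_left]
    simp only [form_add_left, form_smul_left] at e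
    have ea := e a; have eb := e b
    simp only [hab, form_eq_zero_comm C hab, hca, hcb, mul_zero, add_zero, zero_add, mul_eq_zero, ha, hb,
      or_false] at ea eb
    rw [ea, eb, zero_smul, zero_smul, zero_add, zero_add] at hg
    have ec := (smul_eq_zero.1 hg).resolve_right hc0
    intro i
    fin_cases i <;> assumption
  obtain ⟨y, hy⟩ := exists_form_ne_zero C hc0
  have hspan : y ∈ Submodule.span F (Set.range ![a, b, c]) := by
    rw [hli.span_eq_top_of_card_eq_finrank' (by simp)]
    exact Submodule.mem_top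
  obtain ⟨g, hg⟩ := (Submodule.mem_span_range_iff_exists_fun F).1 hspan
  rw [Fin.sum_univ_three] at hg
  simp only [Matrix.cons_val_zero, Matrix.cons_val_one, Matrix.cons_val] at hg
  apply hy
  rw [← hg]
  simp [form_add_right C, form_smul_right C, hca, hcb, hcc]

/-! ### Every involution is an `invol` -/

theorem exists_invol (C : Conj F q) (h2 : (2 : F) ≠ 0) (t : S) (ht : t ≠ 1) (ht2 : t * t = 1) :
    ∃ (v : V) (hv : H v v ≠ 0), t = invol C h2 v hv := by
  obtain ⟨r, hr⟩ : ∃ r : F, C.σ r ≠ r := by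
    by_contra hh
    push Not at hh
    exact C.ne_id (RingHom.ext hh)
  have htt : ∀ x : V, mat t *ᵥ (mat t *ᵥ x) = x := fun x => by
    rw [← mat_mul_apply, ht2, mat_one_apply]
  have hsym : ∀ x y : V, H (mat t *ᵥ x) y = H x (mat t *ᵥ y) := fun x y => by
    rw [← SU_form t x (mat t *ᵥ y), htt]
  -- a non-isotropic fixed vector, orthogonal to any prescribed fixed set
  have key : ∀ W : Set V, (∀ w ∈ W, mat t *ᵥ w = w) →
      (∀ x : V, (∀ w ∈ W, H x w = 0) → ∀ y : V, (∀ w ∈ W, H y w = 0) → H (x + mat t *ᵥ x) y = 0) ∨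
        ∃ u : V, mat t *ᵥ u = u ∧ H u u ≠ 0 ∧ ∀ w ∈ W, H u w = 0 := by
    intro W hW
    by_cases hex : ∃ x : V, (∀ w ∈ W, H x w = 0) ∧ H (x + mat t *ᵥ x) (x + mat t *ᵥ x) ≠ 0
    · obtain ⟨x, hx, hN⟩ := hex
      refine Or.inr ⟨x + mat t *ᵥ x, ?_, hN, fun w hw => ?_⟩
      · rw [Matrix.mulVec_add, htt, add_comm]
      · rw [form_add_left, hsym, hW w hw, hx w hw, add_zero]
    · push Not at hex
      refine Or.inl fun x hx y hy => ?_
      have hB : ∀ z : V, (∀ w ∈ W, H z w = 0) → H (z + mat t *ᵥ z) z = 0 := by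
        intro z hz
        have h1 := hex z hz
        rw [form_add_right C, form_add_left, form_add_left z (mat t *ᵥ z) (mat t *ᵥ z), SU_form] at h1
        have h3 : (2 : F) * H (z + mat t *ᵥ z) z = 0 := by
          rw [form_add_left]
          linear_combination h1 + hsym z z
        exact (mul_eq_zero.1 h3).resolve_left h2
      have hmix : ∀ d : F, C.σ d * H (x + mat t *ᵥ x) y + d * H (y + mat t *ᵥ y) x = 0 := by
        intro d
        have h1 := hB (x + d • y) (fun w hw => by
          rw [form_add_left, form_smul_left, hx w hw, hy w hw, mul_zero, add_zero])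
        have e : x + d • y + mat t *ᵥ (x + d • y) = (x + mat t *ᵥ x) + d • (y + mat t *ᵥ y) := by
          rw [Matrix.mulVec_add, Matrix.mulVec_smul]; module
        rw [e] at h1
        simp only [form_add_right C, form_smul_right C, form_add_left, form_smul_left] at h1 ⊢
        have hxx := hB x hx
        have hyy := hB y hy
        rw [form_add_left] at hxx hyy
        linear_combination h1 - hxx - (C.σ d * d) * hyy
      have e1 := hmix 1
      rw [map_one, one_mul, one_mul] at e1
      have er := hmix r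
      have h3 : (C.σ r - r) * H (x + mat t *ᵥ x) y = 0 := by linear_combination er - r * e1
      exact (mul_eq_zero.1 h3).resolve_left (sub_ne_zero.2 hr)
  have hdet : (mat t).det = 1 := t.1.2
  rcases key ∅ (by simp) with h0 | ⟨v, hv, hvv, -⟩
  · exfalso
    have hneg : mat t = -1 := Matrix.ext_iff_mulVec.2 fun x => by
      rw [Matrix.neg_mulVec, Matrix.one_mulVec]
      refine (eq_neg_of_add_eq_zero_right (ext_form C fun y => ?_))
      rw [form_zero_left]
      exact h0 x (by simp) y (by simp)
    rw [hneg, Matrix.det_neg, Matrix.det_one] at hdet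
    simp only [Fintype.card_fin] at hdet
    apply h2
    linear_combination -hdet
  rcases key {v} (by simpa using hv) with h1 | ⟨w, hw, hww, hwv⟩
  · refine ⟨v, hvv, ext_mulVec fun x => ?_⟩
    have hy : ∀ y : V, H (y - (H y v / H v v) • v) v = 0 := fun y => by
      rw [form_sub_left, form_smul_left, div_mul_cancel₀ _ hvv, sub_self]
    set y := x - (H x v / H v v) • v with hydef
    have hty : y + mat t *ᵥ y = 0 := by
      refine ext_form C fun z => ?_
      rw [form_zero_left]
      have hz : H (y + mat t *ᵥ y) v = 0 := by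
        rw [form_add_left, hsym, hv, hy x, add_zero]
      have := h1 y (by simpa using hy x) (z - (H z v / H v v) • v) (by simpa using hy z)
      rwa [form_sub_right C, form_smul_right C, hz, mul_zero, sub_zero] at this
    have hx : x = y + (H x v / H v v) • v := by rw [hydef, sub_add_cancel]
    rw [invol_apply]
    conv_lhs => rw [hx, Matrix.mulVec_add, Matrix.mulVec_smul, hv, eq_neg_of_add_eq_zero_right hty]
    rw [hydef]
    module
  · exfalso
    have hwv' : H w v = 0 := hwv v rfl
    obtain ⟨u, hu⟩ := exists_frame C hvv hww (form_eq_zero_comm C hwv')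
    have htu : mat t *ᵥ u = (H (mat t *ᵥ u) u / H u u) • u := by
      conv_lhs => rw [hu.expand C (mat t *ᵥ u)]
      rw [hsym u v, hv, hsym u w, hw, form_eq_zero_comm C hu.ac, form_eq_zero_comm C hu.bc]
      simp
    set l := H (mat t *ᵥ u) u / H u u
    have hl : (l * l) • u = u := by
      conv_rhs => rw [← htt u, htu, Matrix.mulVec_smul, htu, smul_smul]
    have hu0 : u ≠ 0 := fun h => hu.nc (by rw [h, form_zero_left])
    have hll : l * l = 1 := by
      have h3 : (l * l - 1) • u = 0 := by rw [sub_smul, one_smul, hl, sub_self]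
      exact sub_eq_zero.1 ((smul_eq_zero.1 h3).resolve_right hu0)
    rcases mul_self_eq_one_iff.1 hll with h | h
    · rw [h, one_smul] at htu
      refine ht (ext_mulVec fun x => ?_)
      rw [mat_one_apply]
      conv_lhs => rw [hu.expand C x]
      simp only [Matrix.mulVec_add, Matrix.mulVec_smul, hv, hw, htu]
      exact (hu.expand C x).symm
    · rw [h] at htu
      have hneg : mat t = qrefl 3 q u (-2 / H u u) := Matrix.ext_iff_mulVec.2 fun x => by
        rw [qrefl_mulVec]
        conv_lhs => rw [hu.expand C x, Matrix.mulVec_add, Matrix.mulVec_add, Matrix.mulVec_smul,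
          Matrix.mulVec_smul, Matrix.mulVec_smul, hv, hw, htu]
        nth_rewrite 4 [hu.expand C x]
        have : (-2 / H u u * H x u) = -2 * (H x u / H u u) := by ring
        rw [this]
        module
      rw [hneg, qrefl_det, div_mul_cancel₀ _ hu.nc] at hdet
      apply h2
      linear_combination -hdet

/-! ### Transitivity -/

theorem exists_SU_line (C : Conj F q) (h2 : (2 : F) ≠ 0) (v w : V) (hv : H v v ≠ 0) (hw : H w w ≠ 0) :
    ∃ (g : S) (c : F), c ≠ 0 ∧ mat g *ᵥ v = c • w := by
  obtain ⟨c, hc0, hc⟩ := CfsgLib.Hermitian.exists_norm C.ne_id C.invol (div_ne_zero hv hw)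
    (by rw [map_div₀, conj_self C, conj_self C])
  have hN : H v v = H (c • w) (c • w) := by
    rw [form_smul_left, form_smul_right C, ← mul_assoc, mul_comm c, hc, div_mul_cancel₀ _ hw]
  obtain ⟨g, hg⟩ := exists_GU_move C hN hv
  obtain ⟨u, hu, huw, -⟩ := exists_orth_two (q := q) w w
  -- a non-isotropic vector orthogonal to `w`
  obtain ⟨e, he, hew⟩ : ∃ e : V, H e e ≠ 0 ∧ H e w = 0 := by
    by_contra hno
    push Not at hno
    have hiso : ∀ e : V, H e w = 0 → H e e = 0 := fun e h => by_contra fun hne => hno e hne h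
    obtain ⟨r, hr⟩ : ∃ r : F, C.σ r ≠ r := by
      by_contra hh
      push Not at hh
      exact C.ne_id (RingHom.ext hh)
    obtain ⟨z, hz⟩ := exists_form_ne_zero C hu
    set z' := z - (H z w / H w w) • w with hz'
    have hzw : H z' w = 0 := by rw [hz', form_sub_left, form_smul_left, div_mul_cancel₀ _ hw, sub_self]
    have hwu : H w u = 0 := form_eq_zero_comm C huw
    have huz : H u z' ≠ 0 := by
      rw [hz', form_sub_right C, form_smul_right C, huw, mul_zero, sub_zero]; exact hz
    have hmix : ∀ d : F, C.σ d * H u z' + d * H z' u = 0 := fun d => by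
      have h1 := hiso (u + d • z') (by rw [form_add_left, form_smul_left, huw, hzw, mul_zero, add_zero])
      simp only [form_add_left, form_add_right C, form_smul_left, form_smul_right C, hiso u huw,
        hiso z' hzw] at h1
      linear_combination h1
    have e1 := hmix 1
    rw [map_one, one_mul, one_mul] at e1
    have h3 : (C.σ r - r) * H u z' = 0 := by linear_combination hmix r - r * e1
    exact huz ((mul_eq_zero.1 h3).resolve_left (sub_ne_zero.2 hr))
  set d : Fˣ := (GeneralLinearGroup.det g.1)⁻¹ with hd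
  have hdn : (d : F) * C.σ (d : F) = 1 := by
    rw [C.pow, ← pow_succ', ← Units.val_pow_eq_pow_val, hd, inv_pow, det_pow C g, inv_one, Units.val_one]
  have hk : ((d : F) - 1) / H e e + C.σ (((d : F) - 1) / H e e)
      + ((d : F) - 1) / H e e * C.σ (((d : F) - 1) / H e e) * H e e = 0 := by
    rw [map_div₀, map_sub, map_one, conj_self C]
    field_simp
    linear_combination hdn
  let k := qreflGU C e _ hk
  have hdet : ((k * g).1.1 : Matrix (Fin 3) (Fin 3) F).det = 1 := by
    rw [Subgroup.coe_mul, Units.val_mul, Matrix.det_mul]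
    show (qrefl 3 q e _).det * g.1.1.det = 1
    rw [qrefl_det, div_mul_cancel₀ _ he, add_sub_cancel, hd, ← GeneralLinearGroup.val_det_apply,
      ← Units.val_mul, inv_mul_cancel, Units.val_one]
  refine ⟨⟨⟨(k * g).1.1, hdet⟩, fun x y => GU_form (k * g) x y⟩, c, hc0, ?_⟩
  show ((k * g).1.1 : Matrix (Fin 3) (Fin 3) F) *ᵥ v = c • w
  rw [Subgroup.coe_mul, Units.val_mul, ← Matrix.mulVec_mulVec, hg]
  show qrefl 3 q e _ *ᵥ (c • w) = c • w
  rw [qrefl_mulVec, form_smul_left, form_eq_zero_comm C hew, mul_zero, mul_zero, zero_smul, add_zero]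

end CfsgLib.UGeom.Invol
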