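import Mathlib
import Cfsg.Agent.UGeom.Involution
set_option autoImplicit false

/-!
Counting involutions of `SU_3(q)`, `q` odd, and the commuting involution graph.
-/

namespace CfsgLib.UGeom.Invol

open Matrix

variable {F : Type*} [Field F] [Fintype F] {q : ℕ}

local notation "V" => (Fin 3 → F)
local notation "H" => Cfsg.hermForm 3 F q
local notation "S" => Cfsg.SU 3 F q

/-- The involutions. -/
def invSet (q : ℕ) (F : Type*) [Field F] : Set (Cfsg.SU 3 F q) := {x | x ≠ 1 ∧ x * x = 1}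

/-- The involutions other than `t` commuting with `t`. -/
def perpSet (t : S) : Set S := {x | x ≠ 1 ∧ x * x = 1 ∧ x ≠ t ∧ Commute t x}

theorem invol_mem (C : Conj F q) (h2 : (2 : F) ≠ 0) (v : V) (hv : H v v ≠ 0) :
    invol C h2 v hv ∈ invSet q F := ⟨invol_ne_one C h2 v hv, invol_mul_self C h2 v hv⟩

theorem mem_perp_iff (C : Conj F q) (h2 : (2 : F) ≠ 0) (v w : V) (hv : H v v ≠ 0) (hw : H w w ≠ 0) :
    invol C h2 w hw ∈ perpSet (invol C h2 v hv) ↔ H w v = 0 := by
  constructor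
  · rintro ⟨-, -, hne, hc⟩
    exact ((commute_iff C h2 v w hv hw).1 hc).resolve_left hne
  · intro h
    refine ⟨invol_ne_one C h2 w hw, invol_mul_self C h2 w hw, ?_, (commute_iff C h2 v w hv hw).2 (Or.inr h)⟩
    intro e
    obtain ⟨c, hc, rfl⟩ := (invol_eq_iff C h2 w v hw hv).1 e
    rw [form_smul_right C, mul_eq_zero, map_eq_zero] at h
    exact hw (h.resolve_left hc)

/-- Each involution corresponds to `q^2 - 1` non-isotropic vectors. -/
theorem card_vec (C : Conj F q) (h2 : (2 : F) ≠ 0) (P : S → Prop) :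
    Nat.card {v : V // ∃ hv : H v v ≠ 0, P (invol C h2 v hv)} =
      {x : S | x ∈ invSet q F ∧ P x}.ncard * (q ^ 2 - 1) := by
  classical
  have hu : Nat.card Fˣ = q ^ 2 - 1 := by rw [Nat.card_units, Nat.card_eq_fintype_card, C.card]
  rw [← hu, ← Nat.card_coe_set_eq, ← Nat.card_prod]
  have hrep : ∀ x : {x : S | x ∈ invSet q F ∧ P x}, ∃ (v : V) (hv : H v v ≠ 0), invol C h2 v hv = x := by
    rintro ⟨x, ⟨hx1, hx2⟩, -⟩
    obtain ⟨v, hv, h⟩ := exists_invol C h2 x hx1 hx2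
    exact ⟨v, hv, h.symm⟩
  choose r hr hrx using hrep
  have hsc : ∀ (x : {x : S | x ∈ invSet q F ∧ P x}) (c : Fˣ), H ((c : F) • r x) ((c : F) • r x) ≠ 0 := fun x c => by
    rw [form_smul_left, form_smul_right C]
    exact mul_ne_zero c.ne_zero (mul_ne_zero ((map_ne_zero C.σ).2 c.ne_zero) (hr x))
  refine (Nat.card_congr (Equiv.ofBijective
    (fun p : {x : S | x ∈ invSet q F ∧ P x} × Fˣ => (⟨(p.2 : F) • r p.1, hsc p.1 p.2, by
      rw [invol_smul C h2 _ (hr p.1) p.2.ne_zero, hrx p.1]; exact p.1.2.2⟩ :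
      {v : V // ∃ hv : H v v ≠ 0, P (invol C h2 v hv)})) ⟨?_, ?_⟩)).symm
  · rintro ⟨x, c⟩ ⟨y, d⟩ h
    have h' : (c : F) • r x = (d : F) • r y := congrArg Subtype.val h
    have hxy : x = y := by
      refine Subtype.ext ?_
      rw [← hrx x, ← hrx y, invol_eq_iff]
      exact ⟨(d : F)⁻¹ * c, mul_ne_zero (inv_ne_zero d.ne_zero) c.ne_zero, by
        rw [← smul_smul, h', inv_smul_smul₀ d.ne_zero]⟩
    subst hxy
    have hne : r x ≠ 0 := fun h0 => hr x (by rw [h0, form_zero_left])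
    exact Prod.ext rfl (Units.ext (smul_left_injective F hne h'))
  · rintro ⟨v, hv, hP⟩
    let x : {x : S | x ∈ invSet q F ∧ P x} := ⟨invol C h2 v hv, invol_mem C h2 v hv, hP⟩
    obtain ⟨c, hc, hcv⟩ := (invol_eq_iff C h2 (r x) v (hr x) hv).1 (hrx x)
    exact ⟨(x, Units.mk0 c hc), Subtype.ext hcv.symm⟩

theorem card_aniso (C : Conj F q) (n : ℕ) :
    Nat.card {v : Fin n → F // Cfsg.hermForm n F q v v ≠ 0} = (q ^ 2) ^ n - normCard n q F (0 : F) := by
  classical
  rw [Nat.card_eq_fintype_card, Fintype.card_subtype_compl, Fintype.card_fun, Fintype.card_fin, C.card,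
    normCard, Nat.card_eq_fintype_card]

theorem ncard_inv (C : Conj F q) (h2 : (2 : F) ≠ 0) :
    (invSet q F).ncard = q ^ 2 * (q ^ 2 - q + 1) := by
  have h := card_vec C h2 (fun _ => True)
  simp only [exists_prop, and_true] at h
  rw [card_aniso C 3, card_isotropic C 3, if_neg (by decide), Set.ofPred_mem_eq] at h
  have hq := C.two_le
  have hpos : 0 < q ^ 2 - 1 := by
    have : 2 * 2 ≤ q ^ 2 := by rw [sq]; exact Nat.mul_le_mul hq hq
    omega
  refine Nat.eq_of_mul_eq_mul_right hpos (h.symm.trans ?_)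
  obtain ⟨k, rfl⟩ : ∃ k, q = k + 2 := ⟨q - 2, by omega⟩
  have e1 : (k + 2) ^ 2 - (k + 2) = (k + 2) * (k + 1) := Nat.sub_eq_of_eq_add (by ring)
  have e2 : (k + 2) ^ 2 - 1 = k ^ 2 + 4 * k + 3 := Nat.sub_eq_of_eq_add (by ring)
  rw [show 3 - 1 = 2 from rfl, e1, e2]
  refine Nat.sub_eq_of_eq_add ?_
  ring

theorem card_perp_e (C : Conj F q) :
    Nat.card {w : V // H w w ≠ 0 ∧ w 0 = 0} = (q ^ 2 - 1) * (q * (q - 1)) := by
  have h : Nat.card {w : V // H w w ≠ 0 ∧ w 0 = 0} =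
      Nat.card {u : Fin 2 → F // Cfsg.hermForm 2 F q u u ≠ 0} :=
    Nat.card_congr
      { toFun := fun w => ⟨Fin.tail w.1, by
          have := w.2.1
          rwa [hermForm_succ, w.2.2, zero_mul, zero_add] at this⟩
        invFun := fun u => ⟨Fin.cons 0 u.1, by
          rw [hermForm_succ, Fin.cons_zero, zero_mul, zero_add, Fin.tail_cons]; exact u.2, Fin.cons_zero _ _⟩
        left_inv := fun w => Subtype.ext (by
          show Fin.cons 0 (Fin.tail w.1) = w.1
          conv_rhs => rw [← Fin.cons_self_tail w.1, w.2.2])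
        right_inv := fun u => Subtype.ext (Fin.tail_cons (α := fun _ => F) 0 u.1) }
  rw [h, card_aniso C 2, card_isotropic C 2, if_pos (by decide)]
  have hq := C.two_le
  obtain ⟨k, rfl⟩ : ∃ k, q = k + 2 := ⟨q - 2, by omega⟩
  have e2 : (k + 2) ^ 2 - 1 = k ^ 2 + 4 * k + 3 := Nat.sub_eq_of_eq_add (by ring)
  rw [show 2 - 1 = 1 from rfl, e2, show k + 2 - 1 = k + 1 from rfl]
  refine Nat.sub_eq_of_eq_add ?_
  ring

/-- An involution commutes with `q (q - 1)` others. -/
theorem ncard_perp (C : Conj F q) (h2 : (2 : F) ≠ 0) (t : S) (ht : t ∈ invSet q F) :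
    (perpSet t).ncard = q * (q - 1) := by
  obtain ⟨v, hv, rfl⟩ := exists_invol C h2 t ht.1 ht.2
  have h := card_vec C h2 (fun x => x ∈ perpSet (invol C h2 v hv))
  have hset : {x : S | x ∈ invSet q F ∧ x ∈ perpSet (invol C h2 v hv)} = perpSet (invol C h2 v hv) :=
    Set.ext fun x => ⟨fun h => h.2, fun h => ⟨⟨h.1, h.2.1⟩, h⟩⟩
  rw [hset] at h
  have he : H (Pi.single 0 1) (Pi.single 0 1) = 1 := by rw [form_single_right C]; simp
  obtain ⟨g, c, hc, hg⟩ := exists_SU_line C h2 v (Pi.single 0 1) hv (by rw [he]; exact one_ne_zero)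
  have hiff : ∀ w : V, H w v = 0 ↔ (mat g *ᵥ w) 0 = 0 := fun w => by
    rw [← SU_form g, hg, form_smul_right C, form_single_right C, mul_eq_zero, map_eq_zero,
      or_iff_right hc]
  have hcard : Nat.card {w : V // ∃ hw : H w w ≠ 0, invol C h2 w hw ∈ perpSet (invol C h2 v hv)} =
      Nat.card {w : V // H w w ≠ 0 ∧ w 0 = 0} :=
    Nat.card_congr
      { toFun := fun w => ⟨mat g *ᵥ w.1, by rw [SU_form]; exact w.2.1,
          (hiff _).1 ((mem_perp_iff C h2 v _ hv w.2.1).1 w.2.2)⟩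
        invFun := fun w => ⟨mat g⁻¹ *ᵥ w.1, by rw [SU_form]; exact w.2.1,
          (mem_perp_iff C h2 v _ hv (by rw [SU_form]; exact w.2.1)).2 ((hiff _).2 (by
            rw [mat_inv_apply]; exact w.2.2))⟩
        left_inv := fun w => Subtype.ext (by
          show mat g⁻¹ *ᵥ (mat g *ᵥ w.1) = w.1
          rw [← mat_mul_apply, inv_mul_cancel, mat_one_apply])
        right_inv := fun w => Subtype.ext (mat_inv_apply g w.1) }
  rw [hcard, card_perp_e C] at h
  have hq := C.two_le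
  have hpos : 0 < q ^ 2 - 1 := by
    have : 2 * 2 ≤ q ^ 2 := by rw [sq]; exact Nat.mul_le_mul hq hq
    omega
  exact (Nat.eq_of_mul_eq_mul_left hpos (h.trans (mul_comm _ _))).symm

/-- Two commuting involutions have exactly one further common neighbour. -/
theorem exists_third (C : Conj F q) (h2 : (2 : F) ≠ 0) {t x : S} (ht : t ∈ invSet q F)
    (hx : x ∈ perpSet t) : ∃ z : S, perpSet t ∩ perpSet x = {z} := by
  obtain ⟨v, hv, rfl⟩ := exists_invol C h2 t ht.1 ht.2
  obtain ⟨w, hw, rfl⟩ := exists_invol C h2 x hx.1 hx.2.1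
  have hwv := (mem_perp_iff C h2 v w hv hw).1 hx
  obtain ⟨c, hf⟩ := exists_frame C hv hw (form_eq_zero_comm C hwv)
  refine ⟨invol C h2 c hf.nc, Set.ext fun y => ⟨?_, ?_⟩⟩
  · rintro ⟨h1, h3⟩
    obtain ⟨u, hu, rfl⟩ := exists_invol C h2 y h1.1 h1.2.1
    have e1 := (mem_perp_iff C h2 v u hv hu).1 h1
    have e2 := (mem_perp_iff C h2 w u hw hu).1 h3
    rw [Set.mem_singleton_iff, invol_eq_iff]
    have hexp := hf.expand C u
    rw [e1, e2, zero_div, zero_div, zero_smul, zero_smul, zero_add, zero_add] at hexp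
    have hne : H u c / H c c ≠ 0 := fun h0 => hu (by
      rw [h0, zero_smul] at hexp
      rw [hexp, form_zero_left])
    refine ⟨(H u c / H c c)⁻¹, inv_ne_zero hne, ?_⟩
    exact (inv_smul_smul₀ hne c).symm.trans (congrArg _ hexp.symm)
  · rintro rfl
    exact ⟨(mem_perp_iff C h2 v c hv hf.nc).2 (form_eq_zero_comm C hf.ac),
      (mem_perp_iff C h2 w c hw hf.nc).2 (form_eq_zero_comm C hf.bc)⟩

/-- Non-commuting involutions have at most one common neighbour. -/
theorem unique_common (C : Conj F q) (h2 : (2 : F) ≠ 0) {t x y y' : S} (ht : t ∈ invSet q F)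
    (hx : x ∈ invSet q F) (hnc : ¬ Commute t x) (hy : y ∈ perpSet t) (hyx : x ∈ perpSet y)
    (hy' : y' ∈ perpSet t) (hyx' : x ∈ perpSet y') : y = y' := by
  obtain ⟨v, hv, rfl⟩ := exists_invol C h2 t ht.1 ht.2
  obtain ⟨w, hw, rfl⟩ := exists_invol C h2 x hx.1 hx.2
  obtain ⟨e, he, rfl⟩ := exists_invol C h2 y hy.1 hy.2.1
  obtain ⟨d, hd, rfl⟩ := exists_invol C h2 y' hy'.1 hy'.2.1
  have hev := (mem_perp_iff C h2 v e hv he).1 hy
  have hwe := (mem_perp_iff C h2 e w he hw).1 hyx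
  have hdv := (mem_perp_iff C h2 v d hv hd).1 hy'
  have hwd := (mem_perp_iff C h2 d w hd hw).1 hyx'
  obtain ⟨c, hf⟩ := exists_frame C hv he (form_eq_zero_comm C hev)
  have hwc : H w c ≠ 0 := fun h0 => by
    have hexp := hf.expand C w
    rw [hwe, h0, zero_div, zero_div, zero_smul, zero_smul, add_zero, add_zero] at hexp
    apply hnc
    rw [commute_iff]
    refine Or.inl ((invol_eq_iff C h2 v w hv hw).2 ⟨_, fun hz => hw ?_, hexp⟩).symm
    rw [hz, zero_smul] at hexp
    rw [hexp, form_zero_left]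
  have hd0 : H d c = 0 := by
    have h := form_eq_zero_comm C hwd
    rw [hf.expand C d, hdv, zero_div, zero_smul, zero_add, form_add_left, form_smul_left,
      form_smul_left, form_eq_zero_comm C hwe, mul_zero, zero_add, mul_eq_zero, div_eq_zero_iff,
      or_iff_left hf.nc] at h
    exact h.resolve_right fun hcw => hwc (form_eq_zero_comm C hcw)
  have hexp := hf.expand C d
  rw [hdv, hd0, zero_div, zero_div, zero_smul, zero_smul, zero_add, add_zero] at hexp
  rw [invol_eq_iff]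
  refine ⟨_, fun hz => hd ?_, hexp⟩
  rw [hz, zero_smul] at hexp
  rw [hexp, form_zero_left]

/-- The involutions at distance two from `t`. -/
def farSet (t : S) : Set S :=
  {x | x ≠ 1 ∧ x * x = 1 ∧ ¬ Commute t x ∧ ∃ y : S, y ≠ 1 ∧ y * y = 1 ∧ Commute t y ∧ Commute y x}

theorem ncard_far (C : Conj F q) (h2 : (2 : F) ≠ 0) (t : S) (ht : t ∈ invSet q F) :
    (farSet t).ncard = q * (q - 1) * (q * (q - 1) - 2) := by
  classical
  let B : perpSet t → Set S := fun y => {x | x ∈ perpSet (y : S) ∧ ¬ Commute t x}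
  have hB : ∀ y : perpSet t, (B y).ncard = q * (q - 1) - 2 := by
    rintro ⟨y, hy⟩
    obtain ⟨z, hz⟩ := exists_third C h2 ht hy
    have hzm : z ∈ perpSet t ∩ perpSet y := hz ▸ Set.mem_singleton z
    have hty : t ∈ perpSet y := ⟨ht.1, ht.2, fun h => hy.2.2.1 h.symm, hy.2.2.2.symm⟩
    have hset : B ⟨y, hy⟩ = perpSet y \ {t, z} := by
      refine Set.ext fun x => ⟨?_, ?_⟩
      · rintro ⟨h1, h3⟩
        refine ⟨h1, ?_⟩
        rintro (rfl | rfl)
        · exact h3 (Commute.refl _)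
        · exact h3 hzm.1.2.2.2
      · rintro ⟨h1, h3⟩
        refine ⟨h1, fun hc => ?_⟩
        have hxt : x ≠ t := fun h => h3 (Or.inl h)
        have : x ∈ perpSet t ∩ perpSet y := ⟨⟨h1.1, h1.2.1, hxt, hc⟩, h1⟩
        rw [hz] at this
        exact h3 (Or.inr this)
    rw [hset, Set.ncard_sdiff (Set.insert_subset hty (Set.singleton_subset_iff.2 hzm.2)),
      ncard_perp C h2 y ⟨hy.1, hy.2.1⟩, Set.ncard_pair (fun h => hzm.1.2.2.1 h.symm)]
  let e : (Σ y : perpSet t, B y) → farSet t := fun p =>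
    ⟨p.2.1, p.2.2.1.1, p.2.2.1.2.1, p.2.2.2, p.1.1, p.1.2.1, p.1.2.2.1, p.1.2.2.2.2, p.2.2.1.2.2.2⟩
  have he : Function.Bijective e := by
    refine ⟨?_, ?_⟩
    · rintro ⟨⟨y, hy⟩, ⟨x, hx⟩⟩ ⟨⟨y', hy'⟩, ⟨x', hx'⟩⟩ h
      obtain rfl : x = x' := congrArg Subtype.val h
      obtain rfl : y = y' :=
        unique_common C h2 ht ⟨hx.1.1, hx.1.2.1⟩ hx.2 hy hx.1 hy' hx'.1
      rfl
    · rintro ⟨x, hx1, hx2, hnc, y, hy1, hy2, hty, hyx⟩
      have hyt : y ≠ t := by rintro rfl; exact hnc hyx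
      have hxy : x ≠ y := by rintro rfl; exact hnc hty
      exact ⟨⟨⟨y, hy1, hy2, hyt, hty⟩, ⟨x, ⟨hx1, hx2, hxy, hyx⟩, hnc⟩⟩, rfl⟩
  rw [← Nat.card_coe_set_eq, ← Nat.card_congr (Equiv.ofBijective e he), Nat.card_sigma]
  simp only [Nat.card_coe_set_eq, hB, Finset.sum_const, Finset.card_univ, smul_eq_mul]
  rw [← Nat.card_eq_fintype_card, Nat.card_coe_set_eq, ncard_perp C h2 t ht]

/-- The involutions at distance three from `t`. -/
def remoteSet (t : S) : Set S :=
  {x | x ≠ 1 ∧ x * x = 1 ∧ ¬ Commute t x ∧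
    ∀ y : S, y ≠ 1 → y * y = 1 → ¬ (Commute t y ∧ Commute y x)}

theorem ncard_remote (C : Conj F q) (h2 : (2 : F) ≠ 0) (hq : 3 ≤ q) (t : S) (ht : t ∈ invSet q F) :
    (remoteSet t).ncard = (q + 1) * (q ^ 2 - 1) := by
  have hsub : insert t (perpSet t) ∪ farSet t ⊆ invSet q F := by
    rintro x ((rfl | hx) | hx)
    · exact ht
    · exact ⟨hx.1, hx.2.1⟩
    · exact ⟨hx.1, hx.2.1⟩
  have hset : remoteSet t = invSet q F \ (insert t (perpSet t) ∪ farSet t) := by
    refine Set.ext fun x => ⟨?_, ?_⟩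
    · rintro ⟨h1, h3, hnc, hall⟩
      refine ⟨⟨h1, h3⟩, ?_⟩
      rintro ((rfl | hx) | ⟨-, -, -, y, hy1, hy2, hy3⟩)
      · exact hnc (Commute.refl _)
      · exact hnc hx.2.2.2
      · exact hall y hy1 hy2 hy3
    · rintro ⟨⟨h1, h3⟩, hout⟩
      have hnc : ¬ Commute t x := fun hc => hout (Or.inl (by
        rcases eq_or_ne x t with h | h
        · exact Or.inl h
        · exact Or.inr ⟨h1, h3, h, hc⟩))
      exact ⟨h1, h3, hnc, fun y hy1 hy2 hy => hout (Or.inr ⟨h1, h3, hnc, y, hy1, hy2, hy⟩)⟩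
  have hdisj : Disjoint (insert t (perpSet t)) (farSet t) := by
    rw [Set.disjoint_left]
    rintro x (rfl | hx) hfar
    · exact hfar.2.2.1 (Commute.refl _)
    · exact hfar.2.2.1 hx.2.2.2
  have h := Set.ncard_sdiff_add_ncard_of_subset hsub
  rw [← hset, Set.ncard_union_eq hdisj, Set.ncard_insert_of_notMem (fun h => h.2.2.1 rfl),
    ncard_perp C h2 t ht, ncard_far C h2 t ht, ncard_inv C h2] at h
  obtain ⟨k, rfl⟩ : ∃ k, q = k + 3 := ⟨q - 3, by omega⟩
  have e1 : (k + 3) ^ 2 - (k + 3) = (k + 3) * (k + 2) := Nat.sub_eq_of_eq_add (by ring)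
  have e2 : (k + 3) ^ 2 - 1 = k ^ 2 + 6 * k + 8 := Nat.sub_eq_of_eq_add (by ring)
  have e3 : (k + 3) * (k + 3 - 1) - 2 = k ^ 2 + 5 * k + 4 :=
    Nat.sub_eq_of_eq_add (by rw [show k + 3 - 1 = k + 2 from rfl]; ring)
  rw [e1, e3, show k + 3 - 1 = k + 2 from rfl] at h
  rw [e2]
  nlinarith [h]

theorem isotropic_pair (C : Conj F q) {a b c u w : V} (hf : Frame q a b c) (hu : u ≠ 0) (hua : H u a = 0)
    (huw : H u w = 0) (huu : H u u = 0) :
    H w b * C.σ (H w b) / H b b + H w c * C.σ (H w c) / H c c = 0 := by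
  have hexp := hf.expand C u
  rw [hua, zero_div, zero_smul, zero_add] at hexp
  set β := H u b / H b b with hβ
  set γ := H u c / H c c with hγ
  have hcb := form_eq_zero_comm C hf.bc
  have hσ2 : ∀ v : V, C.σ (H v w) = H w v := fun v => form_conj C v w
  have e1 : β * H b w + γ * H c w = 0 := by rwa [hexp, form_add_left, form_smul_left, form_smul_left] at huw
  have e2 : β * C.σ β * H b b + γ * C.σ γ * H c c = 0 := by
    rw [hexp] at huu
    simp only [form_add_left, form_add_right C, form_smul_left, form_smul_right C, hf.bc, hcb] at huu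
    linear_combination huu
  have e1' : C.σ β * H w b + C.σ γ * H w c = 0 := by
    have := congrArg C.σ e1
    rwa [map_add, map_mul, map_mul, map_zero, hσ2, hσ2] at this
  have hσb : C.σ (H w b) = H b w := form_conj C w b
  have hσc : C.σ (H w c) = H c w := form_conj C w c
  have hγ0 : γ ≠ 0 := by
    intro h0
    rw [h0, zero_mul, zero_mul, add_zero, mul_eq_zero, or_iff_left hf.nb, mul_eq_zero, map_eq_zero,
      or_self] at e2
    exact hu (by rw [hexp, h0, e2, zero_smul, zero_smul, zero_add])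
  have hγσ : γ * C.σ γ ≠ 0 := mul_ne_zero hγ0 ((map_ne_zero C.σ).2 hγ0)
  have key : (H w b * H b w * H c c + H w c * H c w * H b b) * (γ * C.σ γ) = 0 := by
    linear_combination (H b w * H w b) * e2 - (β * H b w) * H b b * e1' + C.σ γ * H w c * H b b * e1
  rw [hσb, hσc]
  rw [div_add_div _ _ hf.nb hf.nc, div_eq_zero_iff]
  left
  have := (mul_eq_zero.1 key).resolve_right hγσ
  linear_combination this

/-- The commuting involution graph has diameter at most three. -/
theorem exists_path (C : Conj F q) (h2 : (2 : F) ≠ 0) {t x : S} (ht : t ∈ invSet q F) (hx : x ∈ invSet q F) :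
    ∃ y z : S, y ∈ invSet q F ∧ z ∈ invSet q F ∧ Commute t y ∧ Commute y z ∧ Commute z x := by
  by_contra hno
  push Not at hno
  obtain ⟨v, hv, rfl⟩ := exists_invol C h2 t ht.1 ht.2
  obtain ⟨w, hw, rfl⟩ := exists_invol C h2 x hx.1 hx.2
  obtain ⟨a, ha⟩ : ∃ a, a ∈ perpSet (invol C h2 v hv) := by
    refine Set.nonempty_of_ncard_ne_zero ?_
    rw [ncard_perp C h2 _ ht]
    have := C.two_le
    exact (Nat.mul_pos (by omega) (by omega)).ne'
  obtain ⟨e, he, rfl⟩ := exists_invol C h2 a ha.1 ha.2.1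
  have hev := (mem_perp_iff C h2 v e hv he).1 ha
  obtain ⟨c, hf⟩ := exists_frame C hv he (form_eq_zero_comm C hev)
  have key : ∀ {a b c : V}, Frame q a b c → (∃ ha : H a a ≠ 0, Commute (invol C h2 v hv) (invol C h2 a ha)) →
      H w b * C.σ (H w b) / H b b + H w c * C.σ (H w c) / H c c = 0 := by
    rintro a b c hfr ⟨ha, hta⟩
    obtain ⟨u, hu, hua, huw⟩ := exists_orth_two (q := q) a w
    refine isotropic_pair C hfr hu hua huw (by_contra fun huu => ?_)
    refine hno _ _ (invol_mem C h2 a ha) (invol_mem C h2 u huu) hta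
      ((commute_iff C h2 a u ha huu).2 (Or.inr hua)) ?_
    exact (commute_iff C h2 u w huu hw).2 (Or.inr (form_eq_zero_comm C huw))
  have k1 := key hf ⟨hv, Commute.refl _⟩
  have k2 := key (hf.rotate C) ⟨he, (commute_iff C h2 v e hv he).2 (Or.inr hev)⟩
  have k3 := key ((hf.rotate C).rotate C) ⟨hf.nc,
    (commute_iff C h2 v c hv hf.nc).2 (Or.inr (form_eq_zero_comm C hf.ac))⟩
  apply hw
  have hexp := hf.expand C w
  have hsum : H w w = H w v * C.σ (H w v) / H v v + H w e * C.σ (H w e) / H e e + H w c * C.σ (H w c) / H c c := by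
    rw [congrArg (fun z : V => H z w) hexp]
    rw [form_add_left, form_add_left, form_smul_left, form_smul_left, form_smul_left, form_conj C,
      form_conj C, form_conj C]
    ring
  rw [hsum]
  have h4 : (2 : F) * (H w v * C.σ (H w v) / H v v + H w e * C.σ (H w e) / H e e + H w c * C.σ (H w c) / H c c) = 0 := by
    linear_combination k1 + k2 + k3
  exact (mul_eq_zero.1 h4).resolve_left h2

theorem isConj_inv (C : Conj F q) (h2 : (2 : F) ≠ 0) {t x : S} (ht : t ∈ invSet q F) (hx : x ∈ invSet q F) :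
    ∃ g : S, g * t * g⁻¹ = x := by
  obtain ⟨v, hv, rfl⟩ := exists_invol C h2 t ht.1 ht.2
  obtain ⟨w, hw, rfl⟩ := exists_invol C h2 x hx.1 hx.2
  obtain ⟨g, c, hc, hg⟩ := exists_SU_line C h2 v w hv hw
  refine ⟨g, ?_⟩
  rw [conj_invol, invol_eq_iff]
  exact ⟨c⁻¹, inv_ne_zero hc, by rw [hg, inv_smul_smul₀ hc]⟩

theorem card_centralizer (C : Conj F q) (h2 : (2 : F) ≠ 0) {t : S} (ht : t ∈ invSet q F) :
    Nat.card (Subgroup.centralizer ({t} : Set S)) = q * (q + 1) * (q ^ 2 - 1) := by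
  have horb : MulAction.orbit (ConjAct S) t = invSet q F := by
    refine Set.ext fun x => ⟨?_, fun hx => ?_⟩
    · rintro ⟨g, rfl⟩
      obtain ⟨v, hv, rfl⟩ := exists_invol C h2 t ht.1 ht.2
      show g • _ ∈ _
      rw [ConjAct.smul_def, conj_invol]
      exact invol_mem C h2 _ _
    · obtain ⟨g, hg⟩ := isConj_inv C h2 ht hx
      exact ⟨ConjAct.toConjAct g, by simpa [ConjAct.smul_def] using hg⟩
  have h := (MulAction.index_stabilizer (ConjAct S) t)
  rw [horb, ncard_inv C h2, ConjAct.stabilizer_eq_centralizer] at h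
  have hmul := Subgroup.card_mul_index (Subgroup.centralizer ({t} : Set S))
  have h' : (Subgroup.centralizer ({t} : Set S)).index = q ^ 2 * (q ^ 2 - q + 1) := by
    exact h
  rw [h'] at hmul
  have hGU := card_GU C 3
  rw [← card_SU_mul C (by norm_num : 1 ≤ 3)] at hGU
  simp only [Finset.prod_range_succ, Finset.prod_range_zero, one_mul] at hGU
  rw [if_pos (by decide), if_neg (by decide), if_pos (by decide), show 3 * (3 - 1) / 2 = 3 from rfl] at hGU
  have hq := C.two_le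
  obtain ⟨k, rfl⟩ : ∃ k, q = k + 2 := ⟨q - 2, by omega⟩
  have e1 : (k + 2) ^ 2 - (k + 2) = (k + 2) * (k + 1) := Nat.sub_eq_of_eq_add (by ring)
  have e2 : (k + 2) ^ (1 + 1) - 1 = k ^ 2 + 4 * k + 3 := Nat.sub_eq_of_eq_add (by ring)
  rw [e1] at hmul
  rw [e2] at hGU
  rw [show (k + 2) ^ 2 - 1 = k ^ 2 + 4 * k + 3 from e2]
  generalize Nat.card (Subgroup.centralizer ({t} : Set (Cfsg.SU 3 F (k + 2)))) = N at hmul ⊢
  generalize Nat.card (Cfsg.SU 3 F (k + 2)) = M at hmul hGU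
  subst hmul
  apply Nat.eq_of_mul_eq_mul_right (show 0 < (k + 2) ^ 2 * ((k + 2) * (k + 1) + 1) * (k + 2 + 1) by positivity)
  linear_combination hGU

end CfsgLib.UGeom.Invol
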